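import Mathlib
import Cfsg.Agent.H934.PQR.TorGen
import Cfsg.Agent.KFacts.RgdChevCoord
import Cfsg.Agent.ChevalleyStructure.HMatDiagAll
import Cfsg.Agent.S1030

/-!
# The torus of the Chevalley groups: moved elements (S4929, helper177)

For `D.group K` (types `G₂, F₄, E₆, E₇, E₈`, any rank): the torus is abelian, every odd prime dividing its order divides
the order of an element of prime power order moved by a simple reflection, and every odd prime dividing `|K| - 1` divides
the order of the torus.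
-/

set_option autoImplicit false
set_option linter.unusedSectionVars false
set_option maxHeartbeats 400000

namespace Cfsg.Agent.H177.EP

open CoxeterSystem Cfsg.Agent.ChevalleyStructure.CoxeterGeom Cfsg.Agent.Tits.Roots Cfsg.Agent.Tits.Core
  Cfsg.Agent.Nodes.Reps Cfsg.Agent.Nodes.BNOf
  Cfsg.Agent.Nodes.RGDChev Cfsg.Agent.KFacts.RgdChevCoord
open Cfsg.Lie Cfsg.Agent.ChevalleyStructure Cfsg.Agent.ChevalleyStructure.Elts
  Cfsg.Agent.ChevalleyStructure.RootVec Cfsg.Agent.ChevalleyStructure.RootVecTab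
  Cfsg.Agent.ChevalleyStructure.NPerm Cfsg.Agent.ChevalleyStructure.CoxeterGeomTypes
open Cfsg.Agent.Nodes.RGDFoldSL (wS hS)
open Cfsg.Agent.ChevalleyStructure.SL2Hom (up lo)
open Cfsg.Agent.H934.PQR.TorGen

universe u

variable {D : ChevalleyDatum} {l : ℕ} {M : CoxeterMatrix (Fin l)} (hp : IsType D l M) {K : Type u} [Field K]

/-- the homomorphism of the node `i` -/
theorem exists_node (i : Fin l) : ∃ Ψ : Matrix.SpecialLinearGroup (Fin 2) K →* ↥(D.group K),
    Node (TT D K) (nc hp K) (XX D l K) i Ψ ∧ Function.Injective fun a : K => Ψ (up a) := by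
  obtain ⟨φ, -, hxy⟩ := Cfsg.Agent.S1030.result (F := K) D hp.inList (D.simple i) (simple_lt hp.inList (lt_rank hp i))
  have h1' : ∀ s : K, φ (up s) = xG hp.inList (D.simple i) s := fun u =>
    Units.ext (by rw [(hxy (up u) u).1 rfl, coe_xG])
  have h2' : ∀ s : K, φ (lo s) = xG hp.inList (D.neg (D.simple i)) s := fun u =>
    Units.ext (by rw [(hxy (lo u) u).2 rfl, coe_xG])
  have hm : ∀ g, φ g ∈ D.group K := by
    intro g
    have h4 : Subgroup.closure (Set.range (up (F := K)) ∪ Set.range (lo (F := K))) ≤ (D.group K).comap φ := by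
      rw [Subgroup.closure_le]
      rintro _ (⟨t, rfl⟩ | ⟨t, rfl⟩)
      · show φ (up t) ∈ D.group K
        rw [h1']
        exact xG_mem_group hp.inList _ t
      · show φ (lo t) ∈ D.group K
        rw [h2']
        exact xG_mem_group hp.inList _ t
    exact h4 (SL2Hom.mem_closure_SL2 g)
  refine ⟨φ.codRestrict (D.group K) hm, ⟨fun u => ?_, ?_, fun c => ?_⟩, fun a b hab => ?_⟩
  · show u ∈ (XV D l K (sr i)).subgroupOf (D.group K) ↔ _
    rw [Subgroup.mem_subgroupOf, XV_sr hp, mem_rootSubgroup_iff hp.inList]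
    constructor
    · rintro ⟨t, ht⟩
      refine ⟨t, Subtype.ext ?_⟩
      show _ = φ (up t)
      rw [h1']
      exact ht
    · rintro ⟨t, rfl⟩
      exact ⟨t, h1' t⟩
  · apply Subtype.ext
    show φ (up 1 * (lo (-1⁻¹) * up 1)) = nG hp.inList (D.simple i) 1
    rw [map_mul, map_mul, h1', h2', nG_def]
  · show φ (tau c) ∈ D.diagonalSubgroup K
    rw [tau_eq]
    have h5 : φ (hS (c : K)) = hG hp.inList (D.simple i) (c : K) := by
      unfold hS wS
      rw [map_mul, map_mul, map_mul, map_mul, map_mul, h1', h2', h1', h2', hG_def, nG_def, nG_def]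
    rw [h5]
    exact hG_mem_diagonal hp.inList (simple_lt hp.inList (lt_rank hp i)) c.ne_zero
  · have h6 : φ (up a) = φ (up b) := congrArg Subtype.val hab
    rw [h1', h1'] at h6
    exact xG_injective hp.inList (simple_lt hp.inList (lt_rank hp i)) h6

theorem tau_up (c : Kˣ) : tau c * up 1 * (tau c)⁻¹ = up ((c : K) * c) := by
  rw [mul_inv_eq_iff_eq_mul]
  apply Subtype.ext
  rw [Matrix.SpecialLinearGroup.coe_mul, Matrix.SpecialLinearGroup.coe_mul, coe_tau]
  show _ * (!![1, 1; 0, 1] : Matrix (Fin 2) (Fin 2) K) = !![1, (c : K) * c; 0, 1] * _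
  ext i j
  fin_cases i <;> fin_cases j <;> simp [Matrix.mul_apply, Fin.sum_univ_two]

include hp in
theorem tor_data (hD : D ∈ [chevG2, chevB2, chevD4, chevF4, chevE6, chevE7, chevE8]) [Finite K] [Nonempty (Fin l)]
    (r : ℕ) [Fact r.Prime] [CharP K r] :
    (∀ a ∈ TT D K, ∀ b ∈ TT D K, a * b = b * a) ∧
      (∀ p : ℕ, p.Prime → p ≠ 2 → p ∣ Nat.card (TT D K) →
        ∃ i, ∃ t ∈ TT D K, (∃ k : ℕ, t ^ p ^ k = 1) ∧ nc hp K i * t ≠ t * nc hp K i) ∧
      (∀ p : ℕ, p.Prime → p ≠ 2 → p ∣ Nat.card K - 1 → p ∣ Nat.card (TT D K)) := by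
  classical
  have : Finite M.Group := finite_W hp M.toCoxeterSystem
  have R := rgd (K := K) hp M.toCoxeterSystem r
  have hG : RGD.Sup (XX D l K) {x | IsRoot M.toCoxeterSystem hp.isCartan x} = ⊤ := G1_eq_top hp M.toCoxeterSystem
  choose Ψ N hinj using fun i => exists_node hp (K := K) i
  have hab : ∀ a ∈ TT D K, ∀ b ∈ TT D K, a * b = b * a := by
    intro a ha b hb
    obtain ⟨χ, h1⟩ := HMatDiagAll.diagonalSubgroup_le_torus hD (Subgroup.mem_subgroupOf.1 ha)
    obtain ⟨ψ, h2⟩ := HMatDiagAll.diagonalSubgroup_le_torus hD (Subgroup.mem_subgroupOf.1 hb)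
    apply Subtype.ext
    apply Units.ext
    rw [Subgroup.coe_mul, Subgroup.coe_mul, Units.val_mul, Units.val_mul]
    have h1' : ((a : GL D.Idx K) : Matrix D.Idx D.Idx K) = _ := h1
    have h2' : ((b : GL D.Idx K) : Matrix D.Idx D.Idx K) = _ := h2
    rw [h1', h2', Matrix.diagonal_mul_diagonal, Matrix.diagonal_mul_diagonal]
    congr 1
    funext i
    exact mul_comm _ _
  have hT : TT D K = ⨆ i, AA (Ψ i) := T_eq_iSup R hG Ψ N
  refine ⟨hab, ?_, ?_⟩
  · intro p hpp hp2 hd
    have : Fact p.Prime := ⟨hpp⟩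
    obtain ⟨x, hx⟩ := exists_prime_orderOf_dvd_card' (G := TT D K) p hd
    have hpow : ∀ t ∈ TT D K, t ^ (∏ i, Nat.card (AA (Ψ i))) = 1 := by
      intro t ht
      rw [hT] at ht
      have key : t ∈ TT D K ∧ t ^ (∏ i, Nat.card (AA (Ψ i))) = 1 := by
        refine Subgroup.iSup_induction (fun i => AA (Ψ i))
          (C := fun t => t ∈ TT D K ∧ t ^ (∏ i, Nat.card (AA (Ψ i))) = 1) ht ?_ ?_ ?_
        · intro i y hy
          refine ⟨(N i).AA_le hy, ?_⟩
          have h1 : orderOf y ∣ Nat.card (AA (Ψ i)) := by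
            rw [← Subgroup.orderOf_mk y hy]
            exact orderOf_dvd_natCard _
          exact orderOf_dvd_iff_pow_eq_one.1 (h1.trans (Finset.dvd_prod_of_mem _ (Finset.mem_univ i)))
        · exact ⟨Subgroup.one_mem _, one_pow _⟩
        · rintro y z ⟨hy, hy'⟩ ⟨hz, hz'⟩
          refine ⟨Subgroup.mul_mem _ hy hz, ?_⟩
          rw [(show Commute y z from hab y hy z hz).mul_pow, hy', hz', one_mul]
      exact key.2
    have h1 : p ∣ ∏ i, Nat.card (AA (Ψ i)) := by
      rw [← hx, orderOf_dvd_iff_pow_eq_one]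
      exact Subtype.ext (hpow x x.2)
    obtain ⟨i, -, hi⟩ := (Nat.Prime.prime hpp).exists_mem_finset_dvd h1
    obtain ⟨y, hy⟩ := exists_prime_orderOf_dvd_card' (G := AA (Ψ i)) p hi
    refine ⟨i, y, (N i).AA_le y.2, ⟨1, ?_⟩, fun hcomm => ?_⟩
    · rw [pow_one, ← hy, ← Subgroup.orderOf_coe]
      exact pow_orderOf_eq_one _
    · have h2 := (N i).inv y.2
      rw [hcomm, mul_inv_cancel_right] at h2
      have h3 : (y : ↥(D.group K)) ^ 2 = 1 := by
        rw [pow_two]
        nth_rewrite 1 [h2]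
        exact inv_mul_cancel _
      have h4 : p ∣ 2 := by
        rw [← hy, ← Subgroup.orderOf_coe]
        exact orderOf_dvd_of_pow_eq_one h3
      exact hp2 ((Nat.prime_dvd_prime_iff_eq hpp Nat.prime_two).1 h4)
  · intro p hpp hp2 hd
    have : Fact p.Prime := ⟨hpp⟩
    have : Fintype K := Fintype.ofFinite K
    have hcard : Nat.card Kˣ = Nat.card K - 1 := by
      rw [Nat.card_eq_fintype_card, Nat.card_eq_fintype_card, Fintype.card_units]
    rw [← hcard] at hd
    obtain ⟨c, hc⟩ := exists_prime_orderOf_dvd_card' (G := Kˣ) p hd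
    let i : Fin l := Classical.arbitrary _
    have h1 : Ψ i (tau c) ≠ 1 := by
      intro h1
      have h2 : Ψ i (up 1) = Ψ i (up ((c : K) * c)) := by
        rw [← tau_up, map_mul, map_mul, map_inv, h1, one_mul, inv_one, mul_one]
      have h3 : (1 : K) = (c : K) * c := hinj i h2
      have h4 : c ^ 2 = 1 := by
        apply Units.ext
        rw [pow_two, Units.val_mul, ← h3, Units.val_one]
      have h5 := orderOf_dvd_of_pow_eq_one h4
      rw [hc] at h5
      exact hp2 ((Nat.prime_dvd_prime_iff_eq hpp Nat.prime_two).1 h5)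
    have h2 : orderOf (⟨Ψ i (tau c), (N i).tor c⟩ : ↥(TT D K)) = p := by
      rw [Subgroup.orderOf_mk]
      refine orderOf_eq_prime ?_ h1
      rw [← map_pow, ← map_pow, ← hc, pow_orderOf_eq_one, map_one, map_one]
    rw [← h2]
    exact orderOf_dvd_natCard _

end Cfsg.Agent.H177.EP
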